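import Mathlib
import Cfsg.Agent.S2508
import Cfsg.Agent.Lib.Helper14.PSL2Klein
import Cfsg.Agent.Lib.Helper40.L11.PN

/-! S2543 farm, piece PY: in `PSL₂(11)` the centraliser of an element of order 3 has order ≤ 6. -/

set_option autoImplicit false

namespace Cfsg.Agent.Lib.Helper40.L11

theorem psl_centralizer_three {F : Type*} [Field F] [Fintype F] (hF : Fintype.card F = 11)
    (y : Matrix.ProjectiveSpecialLinearGroup (Fin 2) F) (hy : orderOf y = 3) :
    Nat.card (Subgroup.centralizer ({y} : Set (Matrix.ProjectiveSpecialLinearGroup (Fin 2) F))) ≤ 6 := by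
  have : Fact (Nat.Prime 2) := ⟨Nat.prime_two⟩
  set C := Subgroup.centralizer ({y} : Set (Matrix.ProjectiveSpecialLinearGroup (Fin 2) F)) with hC
  have hcard := psl_card hF
  have h2 : (2 : F) ≠ 0 :=
    Cfsg.Agent.Lib.Helper41.two_ne_zero_of_odd_card (by rw [hF])
  have hS := (Cfsg.Agent.S2508.result (F := F) (by rw [hF]; decide) (by rw [hF]; decide)).2
    (by rw [hF])
  have hidx : C.index ∈ Set.range (fun g : (Matrix.ProjectiveSpecialLinearGroup (Fin 2) F) =>
      (Subgroup.centralizer ({g} : Set (Matrix.ProjectiveSpecialLinearGroup (Fin 2) F))).index) :=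
    ⟨y, rfl⟩
  rw [hS, hF] at hidx
  have hmul := Subgroup.card_mul_index C
  rw [hcard] at hmul
  have hyC : y ∈ C := by
    rw [hC, Subgroup.mem_centralizer_iff]
    intro z hz
    rw [Set.mem_singleton_iff] at hz
    rw [hz]
  have h3 : 3 ∣ Nat.card C := by
    have h := orderOf_dvd_natCard (⟨y, hyC⟩ : C)
    rwa [Subgroup.orderOf_mk, hy] at h
  have h4 : ¬ 4 ∣ Nat.card C := by
    intro h4
    obtain ⟨K, hK⟩ := Sylow.exists_subgroup_card_pow_prime (G := C) 2 (n := 2) (by simpa using h4)
    let V : Subgroup (Matrix.ProjectiveSpecialLinearGroup (Fin 2) F) := K.map C.subtype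
    have hV : Nat.card V = 4 := by
      rw [Subgroup.card_map_of_injective C.subtype_injective, hK]
      norm_num
    have hVk := psl_isKleinFour_of_card hF V hV
    have hcen := Cfsg.Agent.Lib.Helper14.psl2_centralizer_klein h2 V hVk
    have hyV : y ∈ V := by
      rw [← hcen, Subgroup.mem_centralizer_iff]
      rintro v ⟨k, -, rfl⟩
      have := Subgroup.mem_centralizer_iff.1 k.2 y rfl
      exact this.symm
    have h := orderOf_dvd_natCard (⟨y, hyV⟩ : V)
    rw [Subgroup.orderOf_mk, hy, hV] at h
    omega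
  simp only [Set.mem_insert_iff, Set.mem_singleton_iff] at hidx
  norm_num at hidx
  have hmul' : Nat.card C * C.index = 660 := hmul
  clear hmul
  rcases hidx with h | h | h | h | h
  · exfalso
    apply h4
    rw [h, Subgroup.card_top, hcard]
    decide
  all_goals (rw [h] at hmul'; omega)

end Cfsg.Agent.Lib.Helper40.L11
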